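import Cfsg.Agent.Lib.Helper77.Crit.Defs

/-! # S3599 piece A: irreducibility of `K = F_{p^a}` under an element of order `q`, `a = ord_q(p)` -/

set_option autoImplicit false

namespace Cfsg.Agent.Lib.Helper77.Crit

theorem irr {K : Type} [Field K] [Fintype K] {p q : ℕ} (hp : p.Prime) (hq : q.Prime)
    (hK : Fintype.card K = p ^ orderOf (p : ZMod q)) (c : K) (hc1 : c ≠ 1) (hcq : c ^ q = 1)
    (W : AddSubgroup K) (hW : ∀ u ∈ W, c * u ∈ W) (hW0 : W ≠ ⊥) : W = ⊤ := by
  classical
  haveI := Fact.mk hq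
  -- the cardinality of `W`
  have hdvd : Nat.card W ∣ p ^ orderOf (p : ZMod q) := by
    rw [← hK, ← Nat.card_eq_fintype_card]
    exact AddSubgroup.card_addSubgroup_dvd_card W
  obtain ⟨b, hb, hWb⟩ := (Nat.dvd_prime_pow hp).1 hdvd
  -- the map `u ↦ c u`
  let f : Function.End W := fun u => ⟨c * u.1, hW _ u.2⟩
  have hfpow : ∀ (n : ℕ) (u : W), ((f ^ n) u : K) = c ^ n * u.1 := by
    intro n
    induction n with
    | zero =>
      intro u
      rw [pow_zero, pow_zero, one_mul]
      rfl
    | succ n ih =>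
      intro u
      rw [pow_succ]
      change ((f ^ n) (f u) : K) = _
      rw [ih]
      change c ^ n * (c * u.1) = _
      ring
  have hf : f ^ q ^ 1 = 1 := by
    funext u
    apply Subtype.ext
    rw [pow_one, hfpow, hcq, one_mul]
    rfl
  have hmod := Equiv.Perm.card_fixedPoints_modEq hf
  have hfix : Fintype.card (Function.fixedPoints f) = 1 := by
    rw [Fintype.card_eq_one_iff]
    refine ⟨⟨0, ?_⟩, ?_⟩
    · apply Subtype.ext
      change c * (0 : K) = 0
      rw [mul_zero]
    · rintro ⟨u, hu⟩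
      apply Subtype.ext
      apply Subtype.ext
      have h1 : c * u.1 = u.1 := congrArg Subtype.val hu
      have h2 : (c - 1) * u.1 = 0 := by rw [sub_mul, h1, one_mul, sub_self]
      rcases mul_eq_zero.1 h2 with h | h
      · exact absurd (sub_eq_zero.1 h) hc1
      · exact h
  rw [hfix, ← Nat.card_eq_fintype_card, hWb] at hmod
  have hpow : (p : ZMod q) ^ b = 1 := by
    have := (ZMod.natCast_eq_natCast_iff _ _ _).2 hmod
    simpa using this
  have hab : orderOf (p : ZMod q) ∣ b := orderOf_dvd_of_pow_eq_one hpow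
  have hb0 : b ≠ 0 := by
    intro h
    rw [h, pow_zero] at hWb
    apply hW0
    exact (AddSubgroup.card_eq_one).1 hWb
  have hbe : b = orderOf (p : ZMod q) :=
    le_antisymm hb (Nat.le_of_dvd (Nat.pos_of_ne_zero hb0) hab)
  apply AddSubgroup.eq_top_of_card_eq
  rw [hWb, hbe, Nat.card_eq_fintype_card, hK]

end Cfsg.Agent.Lib.Helper77.Crit
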