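import Cfsg.Agent.Lib.Helper77.Crit.Defs

/-! # S3599 piece B: powers and element orders in `Aff K C` -/

set_option autoImplicit false

namespace Cfsg.Agent.Lib.Helper77.Crit

variable {K : Type} [Field K] {C : Subgroup Kˣ}

theorem Aff.pow_c (x : Aff K C) (n : ℕ) : (x ^ n).c = x.c ^ n := by
  induction n with
  | zero => simp
  | succ n ih => rw [pow_succ, pow_succ, Aff.mul_c, ih]

theorem Aff.pow_v (x : Aff K C) (n : ℕ) :
    (x ^ n).v = (∑ i ∈ Finset.range n, (((x.c : Kˣ) : K)) ^ i) * x.v := by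
  induction n with
  | zero => simp
  | succ n ih =>
    rw [pow_succ, Aff.mul_v, ih, Aff.pow_c, Finset.sum_range_succ]
    simp only [Subgroup.coe_pow, Units.val_pow_eq_pow_val]
    ring

theorem Aff.c_pow_card {q : ℕ} (hC : Nat.card C = q) (c : C) : c ^ q = 1 := by
  rw [← hC]; exact pow_card_eq_one'

theorem Aff.orderOf_of_c_ne_one {q : ℕ} (hq : q.Prime) (hC : Nat.card C = q) (x : Aff K C)
    (hx : x.c ≠ 1) : orderOf x = q := by
  haveI := Fact.mk hq
  apply orderOf_eq_prime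
  · have hcq : (((x.c : Kˣ) : K)) ^ q = 1 := by
      have := Aff.c_pow_card hC x.c
      have h2 := congrArg (fun c : C => ((c : Kˣ) : K)) this
      simpa using h2
    have hc1 : (((x.c : Kˣ) : K)) ≠ 1 := by
      intro h
      apply hx
      ext
      simpa using h
    have hsum : (∑ i ∈ Finset.range q, (((x.c : Kˣ) : K)) ^ i) = 0 := by
      have := geom_sum_mul (((x.c : Kˣ) : K)) q
      rw [hcq, sub_self] at this
      rcases mul_eq_zero.1 this with h | h
      · exact h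
      · exact absurd (sub_eq_zero.1 h) hc1
    ext
    · rw [Aff.pow_v, hsum, zero_mul, Aff.one_v]
    · rw [Aff.pow_c, Aff.c_pow_card hC, Aff.one_c]
  · intro h
    apply hx
    rw [h, Aff.one_c]

theorem Aff.orderOf_of_c_eq_one {p : ℕ} [CharP K p] (hp : p.Prime) (x : Aff K C)
    (hx : x.c = 1) (hv : x.v ≠ 0) : orderOf x = p := by
  haveI := Fact.mk hp
  apply orderOf_eq_prime
  · ext
    · rw [Aff.pow_v, hx]
      simp [CharP.cast_eq_zero K p]
    · rw [Aff.pow_c, hx, one_pow, Aff.one_c]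
  · intro h
    apply hv
    rw [h, Aff.one_v]

theorem Aff.orderOf_cases {p q : ℕ} [CharP K p] (hp : p.Prime) (hq : q.Prime)
    (hC : Nat.card C = q) (x : Aff K C) : orderOf x = 1 ∨ orderOf x = p ∨ orderOf x = q := by
  by_cases hx : x.c = 1
  · by_cases hv : x.v = 0
    · left
      rw [orderOf_eq_one_iff]
      ext
      · rw [hv, Aff.one_v]
      · rw [hx, Aff.one_c]
    · exact Or.inr (Or.inl (Aff.orderOf_of_c_eq_one hp x hx hv))
  · exact Or.inr (Or.inr (Aff.orderOf_of_c_ne_one hq hC x hx))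

theorem Aff.c_eq_one_of_orderOf {p q : ℕ} (hp : p.Prime) (hq : q.Prime) (hpq : p ≠ q)
    (hC : Nat.card C = q) (x : Aff K C) (hx : orderOf x = p) : x.c = 1 ∧ x.v ≠ 0 := by
  have h1 : x.c = 1 := by
    by_contra h
    exact hpq (hx.symm.trans (Aff.orderOf_of_c_ne_one hq hC x h))
  refine ⟨h1, fun hv => ?_⟩
  have : x = 1 := by
    ext
    · rw [hv, Aff.one_v]
    · rw [h1, Aff.one_c]
  rw [this, orderOf_one] at hx
  exact hp.one_lt.ne hx

theorem Aff.c_ne_one_of_orderOf {p q : ℕ} [CharP K p] (hp : p.Prime) (hq : q.Prime) (hpq : p ≠ q)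
    (x : Aff K C) (hx : orderOf x = q) : x.c ≠ 1 := by
  intro h1
  by_cases hv : x.v = 0
  · have : x = 1 := by
      ext
      · rw [hv, Aff.one_v]
      · rw [h1, Aff.one_c]
    rw [this, orderOf_one] at hx
    exact hq.one_lt.ne hx
  · exact hpq ((Aff.orderOf_of_c_eq_one hp x h1 hv).symm.trans hx)

theorem Aff.exists_orderOf_p {p : ℕ} [CharP K p] (hp : p.Prime) :
    ∃ x : Aff K C, orderOf x = p :=
  ⟨⟨1, 1⟩, Aff.orderOf_of_c_eq_one hp _ rfl one_ne_zero⟩

theorem Aff.exists_c_ne_one {q : ℕ} (hq : q.Prime) (hC : Nat.card C = q) : ∃ d : C, d ≠ 1 := by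
  haveI : Finite C := Nat.finite_of_card_ne_zero (by rw [hC]; exact hq.pos.ne')
  haveI : Nontrivial C := Finite.one_lt_card_iff_nontrivial.1 (by rw [hC]; exact hq.one_lt)
  exact exists_ne 1

theorem Aff.exists_orderOf_q {q : ℕ} (hq : q.Prime) (hC : Nat.card C = q) :
    ∃ x : Aff K C, orderOf x = q := by
  obtain ⟨d, hd⟩ := Aff.exists_c_ne_one hq hC
  exact ⟨⟨0, d⟩, Aff.orderOf_of_c_ne_one hq hC _ hd⟩

end Cfsg.Agent.Lib.Helper77.Crit
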