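import Cfsg.Agent.Lib.Helper77.Crit.A
import Cfsg.Agent.Lib.Helper77.Crit.B

/-! # S3599 piece C: subgroups and normal subgroups of `Aff K C` -/

set_option autoImplicit false

namespace Cfsg.Agent.Lib.Helper77.Crit

variable {K : Type} [Field K] {C : Subgroup Kˣ}

/-- The additive subgroup `{u | (u, 1) ∈ S}`. -/
def Aff.tr (S : Subgroup (Aff K C)) : AddSubgroup K where
  carrier := {u | (⟨u, 1⟩ : Aff K C) ∈ S}
  zero_mem' := S.one_mem
  add_mem' := fun {a b} ha hb => by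
    have h := S.mul_mem ha hb
    have e : (⟨a, 1⟩ * ⟨b, 1⟩ : Aff K C) = ⟨a + b, 1⟩ := by
      ext <;> simp
    rwa [e] at h
  neg_mem' := fun {a} ha => by
    have h := S.inv_mem ha
    have e : ((⟨a, 1⟩ : Aff K C))⁻¹ = ⟨-a, 1⟩ := by
      ext <;> simp
    rwa [e] at h

theorem Aff.mem_tr (S : Subgroup (Aff K C)) (u : K) : u ∈ Aff.tr S ↔ (⟨u, 1⟩ : Aff K C) ∈ S :=
  Iff.rfl

/-- `y (u,1) y⁻¹ = (y.c u, 1)`. -/
theorem Aff.tr_stable (S : Subgroup (Aff K C)) (y : Aff K C)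
    (hy : ∀ x ∈ S, y * x * y⁻¹ ∈ S) (u : K) (hu : u ∈ Aff.tr S) :
    ((y.c : Kˣ) : K) * u ∈ Aff.tr S := by
  have h := hy _ hu
  have e : y * (⟨u, 1⟩ : Aff K C) * y⁻¹ = ⟨((y.c : Kˣ) : K) * u, 1⟩ := by
    ext
    · simp
    · simp
  rw [e] at h
  exact h

theorem Aff.val_ne_one {d : C} (hd : d ≠ 1) : ((d : Kˣ) : K) ≠ 1 := by
  intro h
  apply hd
  ext
  simpa using h

theorem Aff.val_pow_card {q : ℕ} (hC : Nat.card C = q) (d : C) : ((d : Kˣ) : K) ^ q = 1 := by
  have h2 := congrArg (fun c : C => ((c : Kˣ) : K)) (Aff.c_pow_card hC d)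
  simpa using h2

theorem Aff.gen_top [Fintype K] {p q : ℕ} [CharP K p] (hp : p.Prime) (hq : q.Prime) (hpq : p ≠ q)
    (hK : Fintype.card K = p ^ orderOf (p : ZMod q)) (hC : Nat.card C = q)
    (S : Subgroup (Aff K C)) (h1 : ∃ x ∈ S, orderOf x = p) (h2 : ∃ y ∈ S, orderOf y = q) :
    S = ⊤ := by
  obtain ⟨x, hxS, hx⟩ := h1
  obtain ⟨y, hyS, hy⟩ := h2
  obtain ⟨hxc, hxv⟩ := Aff.c_eq_one_of_orderOf hp hq hpq hC x hx
  have hyc : y.c ≠ 1 := Aff.c_ne_one_of_orderOf hp hq hpq y hy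
  have htop : Aff.tr S = ⊤ := by
    apply irr hp hq hK ((y.c : Kˣ) : K) (Aff.val_ne_one hyc) (Aff.val_pow_card hC _)
    · intro u hu
      exact Aff.tr_stable S y (fun z hz => S.mul_mem (S.mul_mem hyS hz) (S.inv_mem hyS)) u hu
    · intro h
      have : x.v ∈ Aff.tr S := by
        rw [Aff.mem_tr]
        have e : (⟨x.v, 1⟩ : Aff K C) = x := by
          apply Aff.ext
          · rfl
          · exact hxc.symm
        rw [e]; exact hxS
      rw [h, AddSubgroup.mem_bot] at this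
      exact hxv this
  have hV : ∀ u : K, (⟨u, 1⟩ : Aff K C) ∈ S := fun u => by
    rw [← Aff.mem_tr, htop]; exact AddSubgroup.mem_top _
  have h0 : (⟨0, y.c⟩ : Aff K C) ∈ S := by
    have := S.mul_mem (hV (-y.v)) hyS
    have e : (⟨-y.v, 1⟩ : Aff K C) * y = ⟨0, y.c⟩ := by
      ext
      · simp
      · simp
    rwa [e] at this
  have hpow : ∀ k : ℕ, (⟨0, y.c ^ k⟩ : Aff K C) ∈ S := by
    intro k
    have := S.pow_mem h0 k
    have e : (⟨0, y.c⟩ : Aff K C) ^ k = ⟨0, y.c ^ k⟩ := by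
      ext
      · rw [Aff.pow_v]; simp
      · rw [Aff.pow_c]
    rwa [e] at this
  haveI := Fact.mk hq
  rw [eq_top_iff]
  intro z _
  have hz : z.c ∈ Submonoid.powers y.c := mem_powers_of_prime_card hC hyc
  obtain ⟨k, hk⟩ := hz
  have := S.mul_mem (hV z.v) (hpow k)
  have e : (⟨z.v, 1⟩ : Aff K C) * ⟨0, y.c ^ k⟩ = z := by
    ext
    · simp
    · simp [hk]
  rwa [e] at this

theorem Aff.nor_mem [Fintype K] {p q : ℕ} [CharP K p] (hp : p.Prime) (hq : q.Prime) (hpq : p ≠ q)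
    (hK : Fintype.card K = p ^ orderOf (p : ZMod q)) (hC : Nat.card C = q)
    (M : Subgroup (Aff K C)) (hM : M.Normal) (hM1 : M ≠ ⊥) (x : Aff K C) (hx : orderOf x = p) :
    x ∈ M := by
  obtain ⟨hxc, hxv⟩ := Aff.c_eq_one_of_orderOf hp hq hpq hC x hx
  obtain ⟨d, hd⟩ := Aff.exists_c_ne_one hq hC
  have htop : Aff.tr M = ⊤ := by
    apply irr hp hq hK ((d : Kˣ) : K) (Aff.val_ne_one hd) (Aff.val_pow_card hC _)
    · intro u hu
      exact Aff.tr_stable M ⟨0, d⟩ (fun z hz => hM.conj_mem z hz _) u hu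
    · intro h
      obtain ⟨n, hn, hn1⟩ : ∃ n ∈ M, n ≠ 1 := by
        rcases M.bot_or_exists_ne_one with h' | h'
        · exact absurd h' hM1
        · exact h'
      by_cases hc : n.c = 1
      · have hv : n.v ≠ 0 := by
          intro hv
          apply hn1
          ext
          · rw [hv, Aff.one_v]
          · rw [hc, Aff.one_c]
        have : n.v ∈ Aff.tr M := by
          rw [Aff.mem_tr]
          have e : (⟨n.v, 1⟩ : Aff K C) = n := by
            apply Aff.ext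
            · rfl
            · exact hc.symm
          rw [e]; exact hn
        rw [h, AddSubgroup.mem_bot] at this
        exact hv this
      · have h3 : (⟨1, 1⟩ : Aff K C) * n * (⟨1, 1⟩ : Aff K C)⁻¹ * n⁻¹ ∈ M :=
          M.mul_mem (hM.conj_mem n hn _) (M.inv_mem hn)
        have e : (⟨1, 1⟩ : Aff K C) * n * (⟨1, 1⟩ : Aff K C)⁻¹ * n⁻¹ =
            ⟨1 - ((n.c : Kˣ) : K), 1⟩ := by
          ext
          · simp
            ring
          · simp
        rw [e] at h3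
        have : 1 - ((n.c : Kˣ) : K) ∈ Aff.tr M := h3
        rw [h, AddSubgroup.mem_bot] at this
        exact Aff.val_ne_one hc (sub_eq_zero.1 this).symm
  have : x.v ∈ Aff.tr M := by rw [htop]; exact AddSubgroup.mem_top _
  rw [Aff.mem_tr] at this
  have e : (⟨x.v, 1⟩ : Aff K C) = x := by
    apply Aff.ext
    · rfl
    · exact hxc.symm
  rwa [e] at this

end Cfsg.Agent.Lib.Helper77.Crit
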