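import Mathlib

/-!
# S3599: definitions (affine Frobenius groups `K ⋊ C`, abstract package of their properties)
-/

set_option autoImplicit false

namespace Cfsg.Agent.Lib.Helper77.Crit

/-- The group `K ⋊ C` of affine maps `x ↦ c x + v` with `c ∈ C ≤ Kˣ`. -/
@[ext] structure Aff (K : Type) [Field K] (C : Subgroup Kˣ) where
  v : K
  c : C

namespace Aff

variable {K : Type} [Field K] {C : Subgroup Kˣ}

instance : Mul (Aff K C) := ⟨fun x y => ⟨x.v + ((x.c : Kˣ) : K) * y.v, x.c * y.c⟩⟩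
instance : One (Aff K C) := ⟨⟨0, 1⟩⟩
instance : Inv (Aff K C) := ⟨fun x => ⟨-((((x.c)⁻¹ : C) : Kˣ) : K) * x.v, (x.c)⁻¹⟩⟩

@[simp] theorem mul_v (x y : Aff K C) : (x * y).v = x.v + ((x.c : Kˣ) : K) * y.v := rfl
@[simp] theorem mul_c (x y : Aff K C) : (x * y).c = x.c * y.c := rfl
@[simp] theorem one_v : (1 : Aff K C).v = 0 := rfl
@[simp] theorem one_c : (1 : Aff K C).c = 1 := rfl
@[simp] theorem inv_v (x : Aff K C) : (x⁻¹).v = -((((x.c)⁻¹ : C) : Kˣ) : K) * x.v := rfl
@[simp] theorem inv_c (x : Aff K C) : (x⁻¹).c = (x.c)⁻¹ := rfl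

instance : Group (Aff K C) :=
  Group.ofLeftAxioms
    (fun x y z => by
      ext
      · simp only [mul_v, mul_c, Subgroup.coe_mul, Units.val_mul]; ring
      · simp only [mul_c, mul_assoc])
    (fun x => by
      ext
      · simp
      · simp)
    (fun x => by
      ext
      · simp
      · simp)

/-- `Aff K C ≃ K × C`. -/
def equivProd : Aff K C ≃ K × C where
  toFun x := (x.v, x.c)
  invFun y := ⟨y.1, y.2⟩
  left_inv _ := rfl
  right_inv _ := rfl

noncomputable instance [Fintype K] : Fintype (Aff K C) := by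
  classical exact Fintype.ofEquiv _ equivProd.symm

end Aff

/-- `x ^ r = 1`, `y ^ r = 1` imply `(x y) ^ r = 1`. -/
def TP (G : Type) [Group G] (r : ℕ) : Prop :=
  ∀ x y : G, x ^ r = 1 → y ^ r = 1 → (x * y) ^ r = 1

/-- The properties of the Frobenius group `p^a : q` that are used. -/
structure Pack (p q : ℕ) where
  F : Type
  [grp : Group F]
  [fin : Fintype F]
  ord : ∀ x : F, orderOf x = 1 ∨ orderOf x = p ∨ orderOf x = q
  exP : ∃ x : F, orderOf x = p
  exQ : ∃ x : F, orderOf x = q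
  gen : ∀ S : Subgroup F, (∃ x ∈ S, orderOf x = p) → (∃ y ∈ S, orderOf y = q) → S = ⊤
  nor : ∀ M : Subgroup F, M.Normal → M ≠ ⊥ → ∀ x : F, orderOf x = p → x ∈ M
  tp : ∀ r : ℕ, r.Coprime q → TP F r
  ntp : ¬ TP F q

attribute [instance] Pack.grp Pack.fin

end Cfsg.Agent.Lib.Helper77.Crit
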