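import Cfsg.Agent.Lib.Helper77.Crit.B

/-! # S3599 piece E: the invariant `TP` on `Aff K C` -/

set_option autoImplicit false

namespace Cfsg.Agent.Lib.Helper77.Crit

variable {K : Type} [Field K] {C : Subgroup Kˣ}

theorem Aff.tp {q : ℕ} (hC : Nat.card C = q) (r : ℕ) (hr : r.Coprime q) : TP (Aff K C) r := by
  have key : ∀ x : Aff K C, x ^ r = 1 → x.c = 1 := by
    intro x hx
    have h1 : x.c ^ r = 1 := by rw [← Aff.pow_c, hx, Aff.one_c]
    have h2 : x.c ^ q = 1 := Aff.c_pow_card hC x.c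
    have := pow_gcd_eq_one.2 ⟨h1, h2⟩
    rwa [Nat.Coprime.gcd_eq_one hr, pow_one] at this
  intro x y hx hy
  have hcomm : Commute x y := by
    have h1 := key x hx
    have h2 := key y hy
    ext
    · simp only [Aff.mul_v, h1, h2, Subgroup.coe_one, Units.val_one, one_mul]
      ring
    · simp only [Aff.mul_c, h1, h2]
  rw [hcomm.mul_pow, hx, hy, one_mul]

theorem Aff.not_tp {p q : ℕ} [CharP K p] (hp : p.Prime) (hq : q.Prime) (hpq : p ≠ q)
    (hC : Nat.card C = q) : ¬ TP (Aff K C) q := by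
  intro h
  obtain ⟨d, hd⟩ := Aff.exists_c_ne_one hq hC
  have hx : orderOf (⟨0, d⟩ : Aff K C) = q := Aff.orderOf_of_c_ne_one hq hC _ hd
  have hy : orderOf (⟨1, d⁻¹⟩ : Aff K C) = q :=
    Aff.orderOf_of_c_ne_one hq hC _ (fun h' => hd (inv_eq_one.1 h'))
  have hxy : orderOf ((⟨0, d⟩ : Aff K C) * ⟨1, d⁻¹⟩) = p := by
    apply Aff.orderOf_of_c_eq_one hp
    · simp
    · simp
  have := h _ _ (hx ▸ pow_orderOf_eq_one _) (hy ▸ pow_orderOf_eq_one _)
  have hd' := orderOf_dvd_of_pow_eq_one this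
  rw [hxy] at hd'
  exact hpq ((Nat.prime_dvd_prime_iff_eq hp hq).1 hd')

end Cfsg.Agent.Lib.Helper77.Crit
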