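import Cfsg.Agent.Lib.Helper77.Crit.Defs

/-! # S3599 piece F: the field and the subgroup of order `q` -/

set_option autoImplicit false

namespace Cfsg.Agent.Lib.Helper77.Crit

theorem exists_field {p q : ℕ} (hp : p.Prime) (hq : q.Prime) (hpq : p ≠ q) :
    ∃ (K : Type) (_ : Field K) (_ : Fintype K) (_ : CharP K p) (C : Subgroup Kˣ),
      Fintype.card K = p ^ orderOf (p : ZMod q) ∧ Nat.card C = q := by
  classical
  haveI := Fact.mk hp
  haveI := Fact.mk hq
  have hp0 : (p : ZMod q) ≠ 0 := by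
    intro h
    rw [ZMod.natCast_eq_zero_iff] at h
    exact hpq ((Nat.prime_dvd_prime_iff_eq hq hp).1 h).symm
  have ha : 0 < orderOf (p : ZMod q) := by
    rw [orderOf_pos_iff, isOfFinOrder_iff_pow_eq_one]
    exact ⟨q - 1, Nat.sub_pos_of_lt hq.one_lt, ZMod.pow_card_sub_one_eq_one hp0⟩
  set a := orderOf (p : ZMod q) with ha_def
  haveI : Fintype (GaloisField p a) := Fintype.ofFinite _
  have hcard : Fintype.card (GaloisField p a) = p ^ a := by
    rw [← Nat.card_eq_fintype_card]
    exact GaloisField.card p a ha.ne'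
  have hdvd : q ∣ Fintype.card (GaloisField p a)ˣ := by
    rw [Fintype.card_units, hcard]
    have h1 : ((p ^ a : ℕ) : ZMod q) = ((1 : ℕ) : ZMod q) := by
      push_cast
      exact pow_orderOf_eq_one _
    have h2 := (ZMod.natCast_eq_natCast_iff _ _ _).1 h1
    exact (Nat.modEq_iff_dvd' (Nat.one_le_pow _ _ hp.pos)).1 h2.symm
  obtain ⟨ζ, hζ⟩ := exists_prime_orderOf_dvd_card q hdvd
  exact ⟨GaloisField p a, inferInstance, inferInstance, inferInstance, Subgroup.zpowers ζ, hcard,
    by rw [Nat.card_zpowers, hζ]⟩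

end Cfsg.Agent.Lib.Helper77.Crit
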