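import Cfsg.Agent.Lib.Helper77.Crit.Sys

/-! # S3599 piece G: element orders in the product -/

set_option autoImplicit false

namespace Cfsg.Agent.Lib.Helper77.Crit

theorem orderOf_pi_coprime {ι : Type} [Fintype ι] {M : ι → Type} [∀ i, Monoid (M i)]
    (g : ∀ i, M i) (h : ∀ i j, i ≠ j → (orderOf (g i)).Coprime (orderOf (g j))) :
    orderOf g = ∏ i, orderOf (g i) := by
  apply Nat.dvd_antisymm
  · apply orderOf_dvd_of_pow_eq_one
    funext i
    rw [Pi.pow_apply, Pi.one_apply]
    exact orderOf_dvd_iff_pow_eq_one.1 (Finset.dvd_prod_of_mem _ (Finset.mem_univ i))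
  · apply Finset.prod_dvd_of_isRelPrime
    · intro i _ j _ hij
      exact Nat.coprime_iff_isRelPrime.1 (h i j hij)
    · intro i _
      apply orderOf_dvd_of_pow_eq_one
      have := congrFun (pow_orderOf_eq_one g) i
      simpa using this

theorem Sys.coprime_orderOf {s : ℕ} (Y : Sys s) {i j : Fin s} (hij : i ≠ j)
    (x : (Y.X i).F) (y : (Y.X j).F) : (orderOf x).Coprime (orderOf y) := by
  obtain ⟨h1, h2, h3, h4⟩ := Y.hd i j hij
  rcases (Y.X i).ord x with hx | hx | hx <;> rcases (Y.X j).ord y with hy | hy | hy <;>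
    rw [hx, hy]
  · exact Nat.coprime_one_left _
  · exact Nat.coprime_one_left _
  · exact Nat.coprime_one_left _
  · exact Nat.coprime_one_right _
  · exact (Nat.coprime_primes (Y.hP i) (Y.hP j)).2 h1
  · exact (Nat.coprime_primes (Y.hP i) (Y.hQ j)).2 h2
  · exact Nat.coprime_one_right _
  · exact (Nat.coprime_primes (Y.hQ i) (Y.hP j)).2 h3
  · exact (Nat.coprime_primes (Y.hQ i) (Y.hQ j)).2 h4

theorem Sys.orderOf_eq {s : ℕ} (Y : Sys s) (g : Y.G) : orderOf g = ∏ j, orderOf (g j) :=
  orderOf_pi_coprime g fun _ _ hij => Y.coprime_orderOf hij _ _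

theorem Sys.spectrum {s : ℕ} (Y : Sys s) : Set.range (orderOf : Y.G → ℕ) = Y.Om := by
  ext m
  constructor
  · rintro ⟨g, rfl⟩
    exact ⟨fun j => orderOf (g j), fun j => (Y.X j).ord (g j), Y.orderOf_eq g⟩
  · rintro ⟨c, hc, rfl⟩
    have : ∀ j, ∃ x : (Y.X j).F, orderOf x = c j := by
      intro j
      rcases hc j with h | h | h
      · exact ⟨1, by rw [h, orderOf_one]⟩
      · rw [h]; exact (Y.X j).exP
      · rw [h]; exact (Y.X j).exQ
    choose g hg using this
    exact ⟨g, by rw [Y.orderOf_eq g]; exact Finset.prod_congr rfl fun j _ => hg j⟩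

theorem Sys.P_mem_Om {s : ℕ} (Y : Sys s) (j : Fin s) : Y.P j ∈ Y.Om := by
  classical
  refine ⟨Function.update 1 j (Y.P j), ?_, ?_⟩
  · intro i
    by_cases h : i = j
    · subst h; right; left; simp
    · left; simp [Function.update_of_ne h]
  · rw [Fintype.prod_eq_single j]
    · simp
    · intro i hi; simp [Function.update_of_ne hi]

theorem Sys.Q_mem_Om {s : ℕ} (Y : Sys s) (j : Fin s) : Y.Q j ∈ Y.Om := by
  classical
  refine ⟨Function.update 1 j (Y.Q j), ?_, ?_⟩
  · intro i
    by_cases h : i = j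
    · subst h; right; right; simp
    · left; simp [Function.update_of_ne h]
  · rw [Fintype.prod_eq_single j]
    · simp
    · intro i hi; simp [Function.update_of_ne hi]

end Cfsg.Agent.Lib.Helper77.Crit
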