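import Cfsg.Agent.Lib.Helper77.Crit.G

/-! # S3599 piece H: isolating one coordinate by a power -/

set_option autoImplicit false

namespace Cfsg.Agent.Lib.Helper77.Crit

theorem Sys.isolate {s : ℕ} (Y : Sys s) (g : Y.G) (j : Fin s) :
    ∃ m : ℕ, g ^ m = Pi.mulSingle j (g j ^ m) ∧ m.Coprime (Y.P j) ∧ m.Coprime (Y.Q j) := by
  classical
  refine ⟨∏ i ∈ Finset.univ.erase j, orderOf (g i), ?_, ?_, ?_⟩
  · funext i
    by_cases h : i = j
    · subst h
      simp
    · rw [Pi.mulSingle_eq_of_ne h, Pi.pow_apply]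
      exact orderOf_dvd_iff_pow_eq_one.1
        (Finset.dvd_prod_of_mem _ (Finset.mem_erase.2 ⟨h, Finset.mem_univ i⟩))
  · apply Nat.Coprime.prod_left
    intro i hi
    have hij : i ≠ j := (Finset.mem_erase.1 hi).1
    obtain ⟨h1, h2, h3, h4⟩ := Y.hd i j hij
    rcases (Y.X i).ord (g i) with hx | hx | hx <;> rw [hx]
    · exact Nat.coprime_one_left _
    · exact (Nat.coprime_primes (Y.hP i) (Y.hP j)).2 h1
    · exact (Nat.coprime_primes (Y.hQ i) (Y.hP j)).2 h3
  · apply Nat.Coprime.prod_left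
    intro i hi
    have hij : i ≠ j := (Finset.mem_erase.1 hi).1
    obtain ⟨h1, h2, h3, h4⟩ := Y.hd i j hij
    rcases (Y.X i).ord (g i) with hx | hx | hx <;> rw [hx]
    · exact Nat.coprime_one_left _
    · exact (Nat.coprime_primes (Y.hP i) (Y.hQ j)).2 h2
    · exact (Nat.coprime_primes (Y.hQ i) (Y.hQ j)).2 h4

end Cfsg.Agent.Lib.Helper77.Crit
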