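import Cfsg.Agent.Lib.Helper77.Crit.H

/-! # S3599 piece I1: lifting a prime order from a section to one factor -/

set_option autoImplicit false

namespace Cfsg.Agent.Lib.Helper77.Crit

theorem Sys.lift_prime {s : ℕ} (Y : Sys s) (H : Subgroup Y.G) (N : Subgroup H) [N.Normal]
    (j : Fin s) (r : ℕ) (hr : r = Y.P j ∨ r = Y.Q j)
    (hspec : r ∈ Set.range (orderOf : (H ⧸ N) → ℕ)) :
    ∃ y : (Y.X j).F, orderOf y = r ∧ ∃ h : Pi.mulSingle j y ∈ H, (⟨_, h⟩ : H) ∉ N := by
  classical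
  have hrp : r.Prime := by
    rcases hr with h | h <;> rw [h]
    · exact Y.hP j
    · exact Y.hQ j
  obtain ⟨x, hx⟩ := hspec
  obtain ⟨h, rfl⟩ := QuotientGroup.mk_surjective x
  have hdvd : r ∣ ∏ i, orderOf ((h : Y.G) i) := by
    rw [← Y.orderOf_eq, Subgroup.orderOf_coe, ← hx]
    apply orderOf_dvd_of_pow_eq_one
    rw [← QuotientGroup.mk_pow, pow_orderOf_eq_one, QuotientGroup.mk_one]
  obtain ⟨i, -, hi⟩ := (Nat.Prime.prime hrp).exists_mem_finset_dvd hdvd
  have hord : orderOf ((h : Y.G) j) = r := by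
    by_cases hij : i = j
    · subst hij
      rcases (Y.X i).ord ((h : Y.G) i) with hx' | hx' | hx'
      · rw [hx'] at hi
        exact absurd (Nat.dvd_one.1 hi) hrp.one_lt.ne'
      · rw [hx'] at hi ⊢
        exact ((Nat.prime_dvd_prime_iff_eq hrp (Y.hP i)).1 hi).symm
      · rw [hx'] at hi ⊢
        exact ((Nat.prime_dvd_prime_iff_eq hrp (Y.hQ i)).1 hi).symm
    · exfalso
      obtain ⟨h1, h2, h3, h4⟩ := Y.hd i j hij
      rcases (Y.X i).ord ((h : Y.G) i) with hx' | hx' | hx'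
      · rw [hx'] at hi
        exact absurd (Nat.dvd_one.1 hi) hrp.one_lt.ne'
      · rw [hx'] at hi
        have := (Nat.prime_dvd_prime_iff_eq hrp (Y.hP i)).1 hi
        rcases hr with h' | h'
        · exact h1 (this.symm.trans h')
        · exact h2 (this.symm.trans h')
      · rw [hx'] at hi
        have := (Nat.prime_dvd_prime_iff_eq hrp (Y.hQ i)).1 hi
        rcases hr with h' | h'
        · exact h3 (this.symm.trans h')
        · exact h4 (this.symm.trans h')
  obtain ⟨m, hm, hmP, hmQ⟩ := Y.isolate (h : Y.G) j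
  have hmr : m.Coprime r := by
    rcases hr with h' | h' <;> rw [h']
    · exact hmP
    · exact hmQ
  have hmem : Pi.mulSingle j ((h : Y.G) j ^ m) ∈ H := by
    rw [← hm]
    exact H.pow_mem h.2 m
  refine ⟨(h : Y.G) j ^ m, ?_, hmem, ?_⟩
  · rw [Nat.Coprime.orderOf_pow (by rw [hord]; exact hmr.symm), hord]
  · intro hN
    have e : (⟨_, hmem⟩ : H) = h ^ m := Subtype.ext (by rw [Subgroup.coe_pow, hm])
    rw [e] at hN
    have : (QuotientGroup.mk h : H ⧸ N) ^ m = 1 := by
      rw [← QuotientGroup.mk_pow]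
      exact (QuotientGroup.eq_one_iff _).2 hN
    have hd := orderOf_dvd_of_pow_eq_one this
    rw [hx] at hd
    exact hrp.one_lt.ne' (Nat.Coprime.eq_one_of_dvd hmr.symm hd)

end Cfsg.Agent.Lib.Helper77.Crit
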