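import Cfsg.Agent.Lib.Helper77.Crit.H

/-! # S3599 pieces I2, I3: subgroups and normal subgroups of the product -/

set_option autoImplicit false

namespace Cfsg.Agent.Lib.Helper77.Crit

theorem Sys.eq_top {s : ℕ} (Y : Sys s) (H : Subgroup Y.G)
    (h1 : ∀ j, ∃ y : (Y.X j).F, orderOf y = Y.P j ∧ Pi.mulSingle j y ∈ H)
    (h2 : ∀ j, ∃ y : (Y.X j).F, orderOf y = Y.Q j ∧ Pi.mulSingle j y ∈ H) : H = ⊤ := by
  classical
  have key : ∀ j, H.comap (MonoidHom.mulSingle (fun j => (Y.X j).F) j) = ⊤ := by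
    intro j
    apply (Y.X j).gen
    · obtain ⟨y, hy, hm⟩ := h1 j
      exact ⟨y, hm, hy⟩
    · obtain ⟨y, hy, hm⟩ := h2 j
      exact ⟨y, hm, hy⟩
  rw [eq_top_iff, ← Subgroup.pi_top (f := fun j => (Y.X j).F) Set.univ, Subgroup.pi_le_iff]
  intro j
  rw [Subgroup.map_le_iff_le_comap, key j]

theorem Sys.normal_contains {s : ℕ} (Y : Sys s) (N : Subgroup Y.G) [N.Normal] (hN : N ≠ ⊥) :
    ∃ j, ∀ y : (Y.X j).F, orderOf y = Y.P j → Pi.mulSingle j y ∈ N := by
  classical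
  obtain ⟨n, hn, hn1⟩ : ∃ n ∈ N, n ≠ 1 := by
    rcases N.bot_or_exists_ne_one with h | h
    · exact absurd h hN
    · exact h
  obtain ⟨j, hj⟩ : ∃ j, n j ≠ 1 := by
    by_contra hcon
    push Not at hcon
    exact hn1 (funext hcon)
  refine ⟨j, ?_⟩
  obtain ⟨m, hm, hmP, hmQ⟩ := Y.isolate n j
  have hne : n j ^ m ≠ 1 := by
    intro h
    have hd := orderOf_dvd_of_pow_eq_one h
    rcases (Y.X j).ord (n j) with hx | hx | hx
    · exact hj (orderOf_eq_one_iff.1 hx)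
    · rw [hx] at hd
      exact (Y.hP j).one_lt.ne' (Nat.Coprime.eq_one_of_dvd hmP.symm hd)
    · rw [hx] at hd
      exact (Y.hQ j).one_lt.ne' (Nat.Coprime.eq_one_of_dvd hmQ.symm hd)
  have hnor : (N.comap (MonoidHom.mulSingle (fun j => (Y.X j).F) j)).Normal :=
    Subgroup.Normal.comap inferInstance _
  have hbot : N.comap (MonoidHom.mulSingle (fun j => (Y.X j).F) j) ≠ ⊥ := by
    intro h
    have : n j ^ m ∈ N.comap (MonoidHom.mulSingle (fun j => (Y.X j).F) j) := by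
      change Pi.mulSingle j (n j ^ m) ∈ N
      rw [← hm]
      exact N.pow_mem hn m
    rw [h, Subgroup.mem_bot] at this
    exact hne this
  intro y hy
  exact (Y.X j).nor _ hnor hbot y hy

end Cfsg.Agent.Lib.Helper77.Crit
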