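import Cfsg.Agent.Lib.Helper77.Crit.C
import Cfsg.Agent.Lib.Helper77.Crit.E
import Cfsg.Agent.Lib.Helper77.Crit.F

/-! # S3599: existence of the package -/

set_option autoImplicit false

namespace Cfsg.Agent.Lib.Helper77.Crit

theorem exists_pack {p q : ℕ} (hp : p.Prime) (hq : q.Prime) (hpq : p ≠ q) :
    Nonempty (Pack p q) := by
  obtain ⟨K, _, _, _, C, hK, hC⟩ := exists_field hp hq hpq
  exact ⟨{ F := Aff K C
           ord := Aff.orderOf_cases hp hq hC
           exP := Aff.exists_orderOf_p hp
           exQ := Aff.exists_orderOf_q hq hC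
           gen := fun S h1 h2 => Aff.gen_top hp hq hpq hK hC S h1 h2
           nor := fun M hM hM1 x hx => Aff.nor_mem hp hq hpq hK hC M hM hM1 x hx
           tp := fun r hr => Aff.tp hC r hr
           ntp := Aff.not_tp hp hq hpq hC }⟩

end Cfsg.Agent.Lib.Helper77.Crit
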