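import Cfsg.Agent.Lib.Helper77.Crit.I1
import Cfsg.Agent.Lib.Helper77.Crit.I2
import Cfsg.Agent.Lib.Helper77.Crit.PackEx

/-! # S3599: criticality of the product, the invariant `TP` -/

set_option autoImplicit false

namespace Cfsg.Agent.Lib.Helper77.Crit

theorem Sys.critical {s : ℕ} (Y : Sys s) (H : Subgroup Y.G) (N : Subgroup H) [N.Normal]
    (hHN : H ≠ ⊤ ∨ N ≠ ⊥) : Set.range (orderOf : (H ⧸ N) → ℕ) ≠ Y.Om := by
  intro heq
  have hP : ∀ j, ∃ y : (Y.X j).F, orderOf y = Y.P j ∧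
      ∃ h : Pi.mulSingle j y ∈ H, (⟨_, h⟩ : H) ∉ N := fun j =>
    Y.lift_prime H N j _ (Or.inl rfl) (heq ▸ Y.P_mem_Om j)
  have hQ : ∀ j, ∃ y : (Y.X j).F, orderOf y = Y.Q j ∧
      ∃ h : Pi.mulSingle j y ∈ H, (⟨_, h⟩ : H) ∉ N := fun j =>
    Y.lift_prime H N j _ (Or.inr rfl) (heq ▸ Y.Q_mem_Om j)
  have hH : H = ⊤ := Y.eq_top H
    (fun j => by obtain ⟨y, h1, h2, -⟩ := hP j; exact ⟨y, h1, h2⟩)
    (fun j => by obtain ⟨y, h1, h2, -⟩ := hQ j; exact ⟨y, h1, h2⟩)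
  have hN : N ≠ ⊥ := hHN.resolve_left (fun h => h hH)
  have hsurj : Function.Surjective H.subtype := fun g => ⟨⟨g, hH ▸ Subgroup.mem_top g⟩, rfl⟩
  have : (N.map H.subtype).Normal := Subgroup.Normal.map inferInstance _ hsurj
  have hN' : N.map H.subtype ≠ ⊥ := by
    intro h
    apply hN
    rw [Subgroup.map_eq_bot_iff_of_injective _ H.subtype_injective] at h
    exact h
  obtain ⟨j, hj⟩ := Y.normal_contains (N.map H.subtype) hN'
  obtain ⟨y, h1, h2, h3⟩ := hP j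
  obtain ⟨n, hn, hn'⟩ := Subgroup.mem_map.1 (hj y h1)
  apply h3
  have : n = ⟨_, h2⟩ := Subtype.ext hn'
  rwa [← this]

theorem TP.of_injective {A B : Type} [Group A] [Group B] {r : ℕ} (f : A →* B)
    (hf : Function.Injective f) (h : TP B r) : TP A r := by
  intro x y hx hy
  apply hf
  rw [map_pow, map_mul, map_one]
  exact h _ _ (by rw [← map_pow, hx, map_one]) (by rw [← map_pow, hy, map_one])

theorem TP.pi {ι : Type} {M : ι → Type} [∀ i, Group (M i)] {r : ℕ} (h : ∀ i, TP (M i) r) :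
    TP (∀ i, M i) r := by
  intro x y hx hy
  funext i
  exact h i (x i) (y i) (congrFun hx i) (congrFun hy i)

/-- `TP` holds in the product for a number coprime to all `Q j`. -/
theorem Sys.tp {s : ℕ} (Y : Sys s) (r : ℕ) (hr : ∀ j, r.Coprime (Y.Q j)) : TP Y.G r :=
  TP.pi fun j => (Y.X j).tp r (hr j)

/-- `TP` fails in the product for `Q j`. -/
theorem Sys.not_tp {s : ℕ} (Y : Sys s) (j : Fin s) : ¬ TP Y.G (Y.Q j) := fun h =>
  (Y.X j).ntp (TP.of_injective (MonoidHom.mulSingle (fun j => (Y.X j).F) j)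
    (fun a b hab => Pi.mulSingle_injective j hab) h)

end Cfsg.Agent.Lib.Helper77.Crit
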