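import Cfsg.Agent.Lib.Helper77.Crit.Defs

/-! # S3599: the product system -/

set_option autoImplicit false

namespace Cfsg.Agent.Lib.Helper77.Crit

/-- `2s` distinct primes `P j`, `Q j` and a package for each pair. -/
structure Sys (s : ℕ) where
  P : Fin s → ℕ
  Q : Fin s → ℕ
  hP : ∀ j, (P j).Prime
  hQ : ∀ j, (Q j).Prime
  hPQ : ∀ j, P j ≠ Q j
  hd : ∀ i j, i ≠ j → P i ≠ P j ∧ P i ≠ Q j ∧ Q i ≠ P j ∧ Q i ≠ Q j
  X : ∀ j, Pack (P j) (Q j)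

/-- The product group. -/
abbrev Sys.G {s : ℕ} (Y : Sys s) : Type := ∀ j, (Y.X j).F

/-- The set `Ω`. -/
def Sys.Om {s : ℕ} (Y : Sys s) : Set ℕ :=
  {m | ∃ c : Fin s → ℕ, (∀ j, c j = 1 ∨ c j = Y.P j ∨ c j = Y.Q j) ∧ m = ∏ j, c j}

end Cfsg.Agent.Lib.Helper77.Crit
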